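import Mathlib
import Cfsg.Prelude.Def_Local
import Cfsg.Prelude.Def_LocalEven

/-! Isolated `p`-minimal subgroups (Meierfrankenfeld-Parker-Rowley): abstract hypothesis bundle used for S3044, S3045.
Everything happens in ONE finite group `G` (in the application `G` is the quotient of the original group by its `p`-core). -/

set_option autoImplicit false

namespace Cfsg.Agent.Lib.Helper48.Iso

/-- `Y` normal in `G`, `R ≤ S` `p`-subgroups, `T0 ≤ Y`. -/
structure Hyp {G : Type*} [Group G] (p : ℕ) (Y S R T0 : Subgroup G) : Prop where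
  nY : Y.Normal
  pS : IsPGroup p S
  RS : R ≤ S
  SR : S ≤ Subgroup.normalizer (R : Set G)
  T0Y : T0 ≤ Y
  ST0 : S ≤ Subgroup.normalizer (T0 : Set G)
  T0ne : T0 ≠ ⊥
  h1 : ∀ N : Subgroup G, N.Normal → IsPGroup p N → N = ⊥
  h3 : ⁅Y, R⁆ = Y
  h4 : ∀ X : Subgroup G, X ≤ Y → S ≤ Subgroup.normalizer (X : Set G) →
    T0 ≤ X ∨ X ≤ Subgroup.normalizer (R : Set G)
  h6 : ∀ N : Subgroup G, N.Normal → T0 ≤ N → Y ≤ N
  h8 : ∀ X : Subgroup G, X ≤ Y → S ≤ Subgroup.normalizer (X : Set G) → T0 ≤ X →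
    Y ⊓ Subgroup.normalizer (R : Set G) ≤ X → X = Y
  h9 : Y ⊔ Subgroup.normalizer (R : Set G) = ⊤

end Cfsg.Agent.Lib.Helper48.Iso
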