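import Cfsg.Agent.Lib.Helper48.PMinimal3
import Cfsg.Agent.Lib.Helper48.Iso.Base

/-! Piece A: overgroups of `S` either lie in `L` or contain `P` and are generated by `P` and their part in `L`. -/

set_option autoImplicit false

namespace Cfsg.Agent.Lib.Helper48.Iso

open Cfsg Cfsg.Agent.Lib.Helper48

variable {G : Type*} [Group G]

theorem gen_aux [Finite G] {p : ℕ} [Fact p.Prime] (S : Sylow p G) (P L : Subgroup G)
    (hL : L = Subgroup.normalizer ((S : Subgroup G) : Set G) ⊔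
      ⨆ P' : {P' : Subgroup G // (S : Subgroup G) ≤ P' ∧ Cfsg.IsPMinimal p ↥P' ∧ P' ≠ P}, (P' : Subgroup G)) :
    ∀ (n : ℕ) (H : Subgroup G), Nat.card H = n → (S : Subgroup G) ≤ H →
      H ≤ L ∨ (P ≤ H ∧ H ≤ P ⊔ (L ⊓ H)) := by
  intro n
  induction n using Nat.strong_induction_on with
  | _ n ih =>
    intro H hH hSH
    by_cases hn : H ≤ Subgroup.normalizer ((S : Subgroup G) : Set G)
    · left; rw [hL]; exact le_sup_of_le_left hn
    by_cases hY : ∃ Y0 : Subgroup G, (S : Subgroup G) ≤ Y0 ∧ Y0 ≤ H ∧ Y0 ≠ H ∧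
        ∀ Y : Subgroup G, (S : Subgroup G) ≤ Y → Y ≤ H → Y ≠ H → Y ≤ Y0
    · obtain ⟨Y0, h1, h2, h3, h4⟩ := hY
      have hmin : IsPMinimal p ↥H :=
        isPMinimal_subgroup_of (Lib.Helper72.sylow_isSylowIn S hSH) hn h1 h2 h3 h4
      by_cases hHP : H = P
      · right
        exact ⟨hHP ▸ le_rfl, hHP ▸ le_sup_left⟩
      · left
        rw [hL]
        apply le_sup_of_le_right
        exact le_iSup (fun P' : {P' : Subgroup G // (S : Subgroup G) ≤ P' ∧ IsPMinimal p ↥P' ∧ P' ≠ P} =>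
          (P' : Subgroup G)) ⟨H, hSH, hmin, hHP⟩
    · push Not at hY
      set Y1 := sSup {Y : Subgroup G | (S : Subgroup G) ≤ Y ∧ Y ≤ H ∧ Y ≠ H} with hY1
      have hSne : (S : Subgroup G) ≠ H := by
        intro h
        apply hn
        rw [← h]
        exact Subgroup.le_normalizer
      have hSY1 : (S : Subgroup G) ≤ Y1 := le_sSup ⟨le_rfl, hSH, hSne⟩
      have hY1H : Y1 ≤ H := sSup_le fun Y hY => hY.2.1
      have hY1eq : Y1 = H := by
        by_contra hne
        obtain ⟨Y, h1, h2, h3, h4⟩ := hY Y1 hSY1 hY1H hne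
        exact h4 (le_sSup ⟨h1, h2, h3⟩)
      have hstep : ∀ Y : Subgroup G, (S : Subgroup G) ≤ Y → Y ≤ H → Y ≠ H →
          Y ≤ L ∨ (P ≤ Y ∧ Y ≤ P ⊔ (L ⊓ Y)) := by
        intro Y h1 h2 h3
        have hlt : Nat.card Y < n := by
          rw [← hH]
          exact Lib.Helper22.natCard_lt_of_lt (lt_of_le_of_ne h2 h3)
        exact ih _ hlt Y rfl h1
      by_cases hall : ∀ Y : Subgroup G, (S : Subgroup G) ≤ Y → Y ≤ H → Y ≠ H → Y ≤ L
      · left
        rw [← hY1eq]
        apply sSup_le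
        rintro Y ⟨h1, h2, h3⟩
        exact hall Y h1 h2 h3
      · right
        push Not at hall
        obtain ⟨Y, h1, h2, h3, h4⟩ := hall
        have hPY : P ≤ Y := by
          rcases hstep Y h1 h2 h3 with h | h
          · exact absurd h h4
          · exact h.1
        refine ⟨hPY.trans h2, ?_⟩
        conv_lhs => rw [← hY1eq]
        apply sSup_le
        rintro Y' ⟨h1', h2', h3'⟩
        rcases hstep Y' h1' h2' h3' with h | h
        · exact le_sup_of_le_right (le_inf h h2')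
        · exact h.2.trans (sup_le_sup_left (inf_le_inf_left _ h2') _)

theorem gen [Finite G] {p : ℕ} [Fact p.Prime] (S : Sylow p G) (P L : Subgroup G)
    (hL : L = Subgroup.normalizer ((S : Subgroup G) : Set G) ⊔
      ⨆ P' : {P' : Subgroup G // (S : Subgroup G) ≤ P' ∧ Cfsg.IsPMinimal p ↥P' ∧ P' ≠ P}, (P' : Subgroup G))
    (H : Subgroup G) (hSH : (S : Subgroup G) ≤ H) : H ≤ L ∨ (P ≤ H ∧ H ≤ P ⊔ (L ⊓ H)) :=
  gen_aux S P L hL _ H rfl hSH

end Cfsg.Agent.Lib.Helper48.Iso
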