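import Cfsg.Agent.Lib.Helper48.Iso.Base
import Cfsg.Agent.Lib.Helper47.PCore

set_option autoImplicit false

namespace Cfsg.Agent.Lib.Helper48.Iso

variable {G : Type*} [Group G] {p : ℕ} {Y S R T0 : Subgroup G}

/-- a normal subgroup of `G` has trivial `p`-core -/
theorem D1.pCoreOf_eq_bot [Finite G] [Fact p.Prime] (h : Hyp p Y S R T0) {N : Subgroup G}
    (hN : N.Normal) : Cfsg.pCoreOf p N = ⊥ := by
  apply h.h1 _ _ (Cfsg.Agent.Lib.Helper47.pCoreOf_isPGroup N)
  rw [← Subgroup.normalizer_eq_top_iff, eq_top_iff]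
  refine le_trans ?_ (Cfsg.Agent.Lib.Helper47.normalizer_le_normalizer_pCoreOf N)
  rw [Subgroup.normalizer_eq_top_iff.2 hN]

/-- a `p`-subgroup of a normal subgroup `N` of `G` normalised by `N` is trivial -/
theorem D1.eq_bot_of_normalized [Finite G] [Fact p.Prime] (h : Hyp p Y S R T0) {N B : Subgroup G}
    (hN : N.Normal) (hBN : B ≤ N) (hn : N ≤ Subgroup.normalizer (B : Set G)) (hB : IsPGroup p B) :
    B = ⊥ := by
  rw [eq_bot_iff, ← D1.pCoreOf_eq_bot h hN]
  exact Cfsg.Agent.Lib.Helper47.le_pCoreOf hBN hn hB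

/-- [D1] proper `G`-normal subgroups of `Y` are central in `Y` and centralized by `R`. -/
theorem central [Finite G] [Fact p.Prime] (h : Hyp p Y S R T0) {N : Subgroup G} (hN : N.Normal)
    (hNY : N ≤ Y) (hne : N ≠ Y) : ⁅N, Y⁆ = ⊥ ∧ ⁅N, R⁆ = ⊥ := by
  have hNR : N ≤ Subgroup.normalizer (R : Set G) := by
    rcases h.h4 N hNY (by rw [Subgroup.normalizer_eq_top_iff.2 hN]; exact le_top) with h1 | h1
    · exact absurd (le_antisymm hNY (h.h6 N hN h1)) hne
    · exact h1
  have hB : N ⊓ R = ⊥ := by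
    apply D1.eq_bot_of_normalized h hN inf_le_left
    · intro n hn
      rw [Subgroup.mem_normalizer_iff]
      intro x
      have h1 := (Subgroup.mem_normalizer_iff.1 (hNR hn)) x
      rw [Subgroup.mem_inf, Subgroup.mem_inf, ← h1]
      constructor
      · rintro ⟨a, b⟩
        exact ⟨hN.conj_mem x a n, b⟩
      · rintro ⟨a, b⟩
        refine ⟨?_, b⟩
        have := hN.conj_mem _ a n⁻¹
        simpa [mul_assoc] using this
    · exact (h.pS.to_le h.RS).to_le inf_le_right
  have h2 : ⁅N, R⁆ = ⊥ := by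
    rw [eq_bot_iff, ← hB]
    apply le_inf
    · exact Subgroup.commutator_le_left N R
    · rw [Subgroup.commutator_le]
      intro n hn r hr
      have h1 := (Subgroup.mem_normalizer_iff.1 (hNR hn) r).1 hr
      exact R.mul_mem h1 (R.inv_mem hr)
  refine ⟨?_, h2⟩
  have hRC : R ≤ Subgroup.centralizer (N : Set G) := by
    rw [← Subgroup.commutator_eq_bot_iff_le_centralizer, Subgroup.commutator_comm]
    exact h2
  have hYC : Y ≤ Subgroup.centralizer (N : Set G) := by
    calc Y = ⁅Y, R⁆ := h.h3.symm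
      _ ≤ ⁅Y, Subgroup.centralizer (N : Set G)⁆ := Subgroup.commutator_mono le_rfl hRC
      _ ≤ Subgroup.centralizer (N : Set G) := Subgroup.commutator_le_right _ _
  rw [Subgroup.commutator_comm, Subgroup.commutator_eq_bot_iff_le_centralizer]
  exact hYC

end Cfsg.Agent.Lib.Helper48.Iso
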