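import Cfsg.Agent.Lib.Helper48.Iso.D1
import Cfsg.Agent.Lib.Helper31.GenFitting
import Cfsg.Agent.Lib.Helper1.Fitting

set_option autoImplicit false

namespace Cfsg.Agent.Lib.Helper48.Iso

open Subgroup
open scoped commutatorElement

variable {G : Type*} [Group G] {p : ℕ} {Y S R T0 : Subgroup G}

/-- [D2] -/
theorem dichotomy [Finite G] [Fact p.Prime] (h : Hyp p Y S R T0) :
    Group.IsNilpotent ↥Y ∨ Cfsg.layer ↥Y = ⊤ := by
  have hnY := h.nY
  have key : ∀ X : Subgroup Y, X.Characteristic → X = ⊤ ∨ X ≤ center Y := by
    intro X hX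
    have hn : (X.map Y.subtype).Normal := ConjAct.normal_of_characteristic_of_normal
    by_cases hXY : X.map Y.subtype = Y
    · left
      apply Subgroup.map_injective Y.subtype_injective
      rw [hXY, ← MonoidHom.range_eq_map, range_subtype]
    · right
      have h0 := (central h hn (map_subtype_le X) hXY).1
      rw [commutator_eq_bot_iff_le_centralizer] at h0
      intro x hx
      rw [mem_center_iff]
      intro y
      have h1 := mem_centralizer_iff.1 (h0 (mem_map_of_mem _ hx)) y y.2
      exact Subtype.ext h1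
  rcases key (Cfsg.layer Y) Cfsg.Agent.Lib.Helper31.layer_characteristic with h1 | h1
  · right; exact h1
  left
  rcases key (Cfsg.fittingSubgroup Y) inferInstance with h2 | h2
  · have h3 := Cfsg.Agent.Lib.Helper1.fittingSubgroup_isNilpotent (G := Y)
    rw [h2] at h3
    exact (Group.isNilpotent_congr Subgroup.topEquiv).1 h3
  · have h3 : Cfsg.generalizedFittingSubgroup Y ≤ center Y := sup_le h1 h2
    have h4 := Cfsg.Agent.Lib.Helper31.centralizer_genFitting_le (G := Y)
    have h5 : (⊤ : Subgroup Y) ≤ centralizer (Cfsg.generalizedFittingSubgroup Y : Set Y) := by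
      intro y _
      rw [mem_centralizer_iff]
      intro g hg
      exact (mem_center_iff.1 (h3 hg) y).symm
    have h6 : center Y = ⊤ := top_le_iff.1 (h5.trans (h4.trans h3))
    exact ⟨⟨1, by rw [Subgroup.upperCentralSeries_one, h6]⟩⟩

end Cfsg.Agent.Lib.Helper48.Iso
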