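import Cfsg.Agent.Lib.Helper48.Iso.D1

set_option autoImplicit false

namespace Cfsg.Agent.Lib.Helper48.Iso

variable {G : Type*} [Group G] {p : ℕ} {Y S R T0 : Subgroup G}

theorem D3ac.Y_ne_bot (h : Hyp p Y S R T0) : Y ≠ ⊥ := by
  intro h0
  apply h.T0ne
  rw [eq_bot_iff, ← h0]
  exact h.T0Y

/-- Sylow subgroups of the nilpotent group `Y` are normal in `G` -/
theorem D3ac.sylow_map_normal [Finite G] (h : Hyp p Y S R T0) (hn : Group.IsNilpotent ↥Y)
    (s : ℕ) [Fact s.Prime] (Q : Sylow s ↥Y) : ((Q : Subgroup ↥Y).map Y.subtype).Normal := by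
  have h0 := ((Group.isNilpotent_of_finite_tfae (G := ↥Y)).out 0 3).mp hn
  have h1 : (Q : Subgroup ↥Y).Normal := h0 s inferInstance Q
  have h2 : (Q : Subgroup ↥Y).Characteristic := Q.characteristic_of_normal h1
  have := h.nY
  exact ConjAct.normal_of_characteristic_of_normal

/-- [D3a] -/
theorem nilp_coprime [Finite G] [Fact p.Prime] (h : Hyp p Y S R T0) (hn : Group.IsNilpotent ↥Y) :
    (Nat.card Y).Coprime p := by
  obtain ⟨P0⟩ : Nonempty (Sylow p ↥Y) := inferInstance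
  have h1 := D3ac.sylow_map_normal h hn p P0
  have h2 : (P0 : Subgroup ↥Y).map Y.subtype = ⊥ := h.h1 _ h1 (P0.2.map _)
  have h3 : (P0 : Subgroup ↥Y) = ⊥ := by
    rwa [(Subgroup.map_eq_bot_iff_of_injective _ Y.subtype_injective)] at h2
  rw [Nat.coprime_comm, Nat.Prime.coprime_iff_not_dvd (Fact.out)]
  intro hd
  exact P0.ne_bot_of_dvd_card hd h3

/-- [D3c] -/
theorem nilp_class [Finite G] [Fact p.Prime] (h : Hyp p Y S R T0) (hn : Group.IsNilpotent ↥Y) :
    ⁅⁅Y, Y⁆, Y⁆ = ⊥ := by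
  have := h.nY
  have hle : ⁅Y, Y⁆ ≤ Y := Subgroup.commutator_le_left Y Y
  refine (central h (N := ⁅Y, Y⁆) inferInstance hle ?_).1
  intro heq
  have hnt : Nontrivial ↥Y := (Subgroup.nontrivial_iff_ne_bot Y).2 (D3ac.Y_ne_bot h)
  have hs : Group.IsSolvable ↥Y := inferInstance
  have h1 := Group.IsSolvable.commutator_lt_top_of_nontrivial ↥Y
  apply h1.ne
  apply Subgroup.map_injective Y.subtype_injective
  rw [commutator_def, Subgroup.map_commutator, ← MonoidHom.range_eq_map, Subgroup.range_subtype, heq]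

end Cfsg.Agent.Lib.Helper48.Iso
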