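import Cfsg.Agent.Lib.Helper48.Iso.D3ac

set_option autoImplicit false

namespace Cfsg.Agent.Lib.Helper48.Iso

open scoped commutatorElement

variable {G : Type*} [Group G] {p : ℕ} {Y S R T0 : Subgroup G}

namespace D3b

theorem conj_mem_of_mem_normalizer {A : Subgroup G} {g a : G}
    (hg : g ∈ Subgroup.normalizer (A : Set G)) (ha : a ∈ A) : g * a * g⁻¹ ∈ A :=
  (Subgroup.mem_normalizer_iff.mp hg a).mp ha

theorem mem_normalizer_of_forall {A : Subgroup G} {K : Subgroup G}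
    (h : ∀ g ∈ K, ∀ a ∈ A, g * a * g⁻¹ ∈ A) : K ≤ Subgroup.normalizer (A : Set G) := by
  intro g hg
  rw [Subgroup.mem_normalizer_iff]
  intro a
  refine ⟨h g hg a, fun ha => ?_⟩
  have := h g⁻¹ (K.inv_mem hg) _ ha
  simpa [mul_assoc] using this

theorem le_normalizer_sup {K A B : Subgroup G} (hA : K ≤ Subgroup.normalizer (A : Set G))
    (hB : K ≤ Subgroup.normalizer (B : Set G)) :
    K ≤ Subgroup.normalizer ((A ⊔ B : Subgroup G) : Set G) := by
  apply mem_normalizer_of_forall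
  intro g hg x hx
  have h1 : (A ⊔ B).map (MulAut.conj g).toMonoidHom ≤ A ⊔ B := by
    rw [Subgroup.map_sup]
    apply sup_le_sup
    · rintro _ ⟨a, ha, rfl⟩
      exact conj_mem_of_mem_normalizer (hA hg) ha
    · rintro _ ⟨a, ha, rfl⟩
      exact conj_mem_of_mem_normalizer (hB hg) ha
  exact h1 ⟨x, hx, rfl⟩

theorem inf_eq_bot_of_coprime [Finite G] [Fact p.Prime] {A B : Subgroup G} (hB : IsPGroup p B)
    (hc : (Nat.card A).Coprime p) : A ⊓ B = ⊥ := by
  have h1 : IsPGroup p ↥(A ⊓ B) := hB.to_le inf_le_right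
  obtain ⟨n, hn⟩ := IsPGroup.iff_card.mp h1
  have h2 : Nat.card ↥(A ⊓ B) ∣ Nat.card A := Subgroup.card_dvd_of_le inf_le_left
  have h3 : (Nat.card ↥(A ⊓ B)).Coprime (Nat.card A) := by
    rw [hn]
    exact (Nat.Coprime.pow_left n hc.symm)
  have h4 : Nat.card ↥(A ⊓ B) = 1 := Nat.Coprime.eq_one_of_dvd h3 h2
  exact (Subgroup.card_eq_one).mp h4

end D3b

open D3b in
/-- [D3b] -/
theorem nilp_eq [Finite G] [Fact p.Prime] (h : Hyp p Y S R T0) (hn : Group.IsNilpotent ↥Y) :
    Y = T0 := by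
  have hnY := h.nY
  have hcop := nilp_coprime h hn
  have hYR : Y ⊓ R = ⊥ := inf_eq_bot_of_coprime (h.pS.to_le h.RS) hcop
  have hYne : Y ≠ ⊥ := fun h0 => h.T0ne (le_bot_iff.mp (h0 ▸ h.T0Y))
  set C := Y ⊓ Subgroup.centralizer (R : Set G) with hC
  have h1 : Y ⊓ Subgroup.normalizer (R : Set G) ≤ C := by
    intro x hx
    refine Subgroup.mem_inf.mpr ⟨hx.1, ?_⟩
    rw [Subgroup.mem_centralizer_iff]
    intro r hr
    have h2 : x * r * x⁻¹ * r⁻¹ ∈ Y ⊓ R := by
      refine Subgroup.mem_inf.mpr ⟨?_, ?_⟩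
      · have : r * x⁻¹ * r⁻¹ ∈ Y := hnY.conj_mem _ (Y.inv_mem hx.1) r
        have h3 := Y.mul_mem hx.1 this
        simpa [mul_assoc] using h3
      · exact R.mul_mem (conj_mem_of_mem_normalizer hx.2 hr) (R.inv_mem hr)
    rw [hYR, Subgroup.mem_bot] at h2
    have h3 : x * r = r * x := by
      have := congrArg (fun z => z * r * x) h2
      simpa [mul_assoc] using this
    exact h3.symm
  have hCY : C ≤ Y := inf_le_left
  have h2 : C ≠ Y := by
    intro hCe
    have h3 : ⁅Y, R⁆ = ⊥ := by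
      rw [Subgroup.commutator_eq_bot_iff_le_centralizer]
      rw [← hCe]
      exact inf_le_right
    exact hYne (h.h3 ▸ h3)
  -- conjugation by `N(R)` preserves `C`
  have hNC : ∀ n ∈ Subgroup.normalizer (R : Set G), ∀ c ∈ C, n * c * n⁻¹ ∈ C := by
    intro n hn' c hc
    refine Subgroup.mem_inf.mpr ⟨hnY.conj_mem _ hc.1 n, ?_⟩
    rw [Subgroup.mem_centralizer_iff]
    intro r hr
    have h3 : n⁻¹ * r * n⁻¹⁻¹ ∈ R :=
      conj_mem_of_mem_normalizer (Subgroup.inv_mem _ hn') hr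
    have h4 := (Subgroup.mem_centralizer_iff.mp hc.2) _ h3
    have h5 := congrArg (fun z => n * z * n⁻¹) h4
    simpa [mul_assoc] using h5
  -- `C` is central in `Y`
  have h3 : ⁅C, Y⁆ = ⊥ := by
    have hCt : C.subgroupOf Y ≠ ⊤ := by
      intro h4
      exact h2 (le_antisymm hCY (Subgroup.subgroupOf_eq_top.mp h4))
    obtain ⟨M, hM, hCM⟩ := (eq_top_or_exists_le_coatom (C.subgroupOf Y)).resolve_left hCt
    have hMn : M.Normal :=
      Subgroup.NormalizerCondition.normal_of_coatom M Group.normalizerCondition_of_isNilpotent hM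
    have hNle : Subgroup.normalClosure (C : Set G) ≤ M.map Y.subtype := by
      rw [Subgroup.normalClosure, Subgroup.closure_le]
      intro x hx
      rw [Group.mem_conjugatesOfSet_iff] at hx
      obtain ⟨c, hc, hcx⟩ := hx
      rw [isConj_iff] at hcx
      obtain ⟨g, rfl⟩ := hcx
      have hg : g ∈ Y ⊔ Subgroup.normalizer (R : Set G) := by rw [h.h9]; trivial
      have hg' : g ∈ ((Y ⊔ Subgroup.normalizer (R : Set G) : Subgroup G) : Set G) := hg
      rw [Subgroup.normal_mul] at hg'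
      obtain ⟨y, hy, n, hn', rfl⟩ := hg'
      have hc' : n * c * n⁻¹ ∈ C := hNC n hn' c hc
      have h5 : (⟨n * c * n⁻¹, hCY hc'⟩ : Y) ∈ M := hCM (by
        rw [Subgroup.mem_subgroupOf]; exact hc')
      have h6 := hMn.conj_mem _ h5 ⟨y, hy⟩
      refine ⟨_, h6, ?_⟩
      simp [mul_assoc]
    have hNY : Subgroup.normalClosure (C : Set G) ≤ Y :=
      hNle.trans (Subgroup.map_subtype_le M)
    have hNne : Subgroup.normalClosure (C : Set G) ≠ Y := by
      intro h7
      apply hM.1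
      rw [eq_top_iff]
      intro y _
      have h8 : (y : G) ∈ M.map Y.subtype := hNle (by rw [h7]; exact y.2)
      obtain ⟨m, hm, hmy⟩ := h8
      have : m = y := Subtype.ext hmy
      exact this ▸ hm
    have h9 := (central h Subgroup.normalClosure_normal hNY hNne).1
    rw [eq_bot_iff, ← h9]
    exact Subgroup.commutator_mono Subgroup.le_normalClosure le_rfl
  -- `X = T0 ⊔ C`
  have hSC : S ≤ Subgroup.normalizer (C : Set G) :=
    mem_normalizer_of_forall (fun g hg c hc => hNC g (h.SR hg) c hc)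
  have h4 : T0 ⊔ C = Y :=
    h.h8 (T0 ⊔ C) (sup_le h.T0Y hCY) (le_normalizer_sup h.ST0 hSC) le_sup_left
      (h1.trans le_sup_right)
  have hcomm : ∀ c ∈ C, ∀ y ∈ Y, c * y = y * c := by
    intro c hc y hy
    have := (Subgroup.commutator_eq_bot_iff_le_centralizer.mp h3) hc
    exact ((Subgroup.mem_centralizer_iff.mp this) y hy).symm
  have h5 : ⁅Y, R⁆ ≤ T0 := by
    rw [Subgroup.commutator_le]
    intro y hy r hr
    have hy' : y ∈ T0 ⊔ C := h4 ▸ hy
    have hy'' : ∃ t ∈ T0, ∃ c ∈ C, t * c = y := by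
      have hc : ∀ (a : T0) (t : C), Commute (T0.subtype a) (C.subtype t) :=
        fun a t => (hcomm t t.2 a (h.T0Y a.2)).symm
      have hr := MonoidHom.noncommCoprod_range T0.subtype C.subtype hc
      rw [Subgroup.range_subtype, Subgroup.range_subtype] at hr
      rw [← hr] at hy'
      obtain ⟨⟨a, t⟩, rfl⟩ := hy'
      exact ⟨a, a.2, t, t.2, rfl⟩
    obtain ⟨t, ht, c, hc, rfl⟩ := hy''
    have h6 : r * c = c * r := (Subgroup.mem_centralizer_iff.mp hc.2) r hr
    have h7 : r * t⁻¹ * r⁻¹ ∈ T0 :=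
      conj_mem_of_mem_normalizer (h.ST0 (h.RS hr)) (T0.inv_mem ht)
    have h8 : ⁅t * c, r⁆ = t * (r * t⁻¹ * r⁻¹) := by
      rw [commutatorElement_def]
      have : c * r * c⁻¹ = r := by rw [← h6]; group
      calc t * c * r * (t * c)⁻¹ * r⁻¹ = t * (c * r * c⁻¹) * t⁻¹ * r⁻¹ := by group
        _ = t * (r * t⁻¹ * r⁻¹) := by rw [this]; group
    rw [h8]
    exact T0.mul_mem ht h7
  exact le_antisymm (h.h3 ▸ h5) h.T0Y

end Cfsg.Agent.Lib.Helper48.Iso
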