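import Cfsg.Agent.Lib.Helper48.Iso.D3ac

set_option autoImplicit false

namespace Cfsg.Agent.Lib.Helper48.Iso

variable {G : Type*} [Group G] {p : ℕ} {Y S R T0 : Subgroup G}

/-- [D3d] -/
theorem nilp_prime [Finite G] [Fact p.Prime] (h : Hyp p Y S R T0) (hn : Group.IsNilpotent ↥Y) :
    ∃ t : ℕ, t.Prime ∧ t ≠ p ∧ IsPGroup t Y := by
  have hY0 := D3ac.Y_ne_bot h
  suffices hex : ∃ t : ℕ, t.Prime ∧ IsPGroup t Y by
    obtain ⟨t, ht, hYt⟩ := hex
    refine ⟨t, ht, ?_, hYt⟩
    rintro rfl
    obtain ⟨k, hk⟩ := IsPGroup.iff_card.1 hYt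
    have hc := nilp_coprime h hn
    rw [hk] at hc
    apply hY0
    rw [← Subgroup.card_eq_one, hk]
    rcases Nat.eq_zero_or_pos k with rfl | hk0
    · simp
    · exfalso
      have := (Nat.coprime_pow_left_iff hk0 t t).1 hc
      rw [Nat.coprime_self] at this
      exact ht.one_lt.ne' this
  by_contra hcon
  push Not at hcon
  set C : Subgroup G := Y ⊓ Subgroup.centralizer (R : Set G) with hC
  have hdvd : Nat.card Y ∣ Nat.card C := by
    rw [← Nat.factorization_prime_le_iff_dvd Nat.card_pos.ne' Nat.card_pos.ne']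
    intro s hs
    have : Fact s.Prime := ⟨hs⟩
    obtain ⟨Q⟩ : Nonempty (Sylow s ↥Y) := inferInstance
    set Ys := (Q : Subgroup ↥Y).map Y.subtype with hYs
    have h1 : Ys.Normal := D3ac.sylow_map_normal h hn s Q
    have h2 : Ys ≤ Y := Subgroup.map_subtype_le _
    have h3 : Ys ≠ Y := by
      intro heq
      apply hcon s hs
      rw [← heq]
      exact Q.2.map _
    have h4 := (central h h1 h2 h3).2
    have h5 : Ys ≤ C := by
      refine le_inf h2 ?_
      rwa [Subgroup.commutator_eq_bot_iff_le_centralizer] at h4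
    have h6 : Nat.card Ys = s ^ (Nat.card Y).factorization s := by
      rw [hYs, Subgroup.card_map_of_injective Y.subtype_injective, Q.card_eq_multiplicity]
    have h7 : Nat.card Ys ∣ Nat.card C := Subgroup.card_dvd_of_le h5
    rw [h6] at h7
    exact (hs.pow_dvd_iff_le_factorization Nat.card_pos.ne').1 h7
  have hCY : C = Y :=
    Subgroup.eq_of_le_of_card_ge inf_le_left (Nat.le_of_dvd Nat.card_pos hdvd)
  apply hY0
  rw [← h.h3, Subgroup.commutator_eq_bot_iff_le_centralizer, ← hCY]
  exact inf_le_right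

end Cfsg.Agent.Lib.Helper48.Iso
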