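import Cfsg.Agent.Lib.Helper48.Iso.Base

set_option autoImplicit false

namespace Cfsg.Agent.Lib.Helper48.Iso

variable {G : Type*} [Group G]

/-- [D4a] a `p`-group `S` normalizes some Sylow `s`-subgroup of the normal `p'`-subgroup `Y`. -/
theorem exists_invariant_sylow [Finite G] {p s : ℕ} [Fact p.Prime] [Fact s.Prime] {Y S : Subgroup G}
    (hY : Y.Normal) (pS : IsPGroup p S) (hp : ¬ p ∣ Nat.card Y) :
    ∃ Q : Sylow s ↥Y, S ≤ Subgroup.normalizer (((Q : Subgroup ↥Y).map Y.subtype : Subgroup G) : Set G) := by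
  letI : MulDistribMulAction ↥S ↥Y :=
    MulDistribMulAction.compHom ↥Y ((MulAut.conjNormal (H := Y)).comp S.subtype)
  have hsmul : ∀ (g : ↥S) (y : ↥Y), ((g • y : ↥Y) : G) = (g : G) * y * (g : G)⁻¹ := fun g y => rfl
  have hcard : ¬ p ∣ Nat.card (Sylow s ↥Y) := by
    intro h
    obtain ⟨P⟩ : Nonempty (Sylow s ↥Y) := inferInstance
    exact hp ((h.trans P.card_dvd_index).trans (Subgroup.index_dvd_card _))
  obtain ⟨Q, hQ⟩ := pS.nonempty_fixed_point_of_prime_not_dvd_card (Sylow s ↥Y) hcard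
  refine ⟨Q, ?_⟩
  have key : ∀ g ∈ S, ∀ h ∈ (Q : Subgroup ↥Y).map Y.subtype,
      g * h * g⁻¹ ∈ (Q : Subgroup ↥Y).map Y.subtype := by
    rintro g hg _ ⟨y, hy, rfl⟩
    have h1 : (⟨g, hg⟩ : ↥S) • Q = Q := hQ ⟨g, hg⟩
    have h2 : (⟨g, hg⟩ : ↥S) • y ∈ ((⟨g, hg⟩ : ↥S) • Q : Sylow s ↥Y) := by
      exact Subgroup.smul_mem_pointwise_smul y (⟨g, hg⟩ : ↥S) (Q : Subgroup ↥Y) hy
    rw [h1] at h2
    exact ⟨_, h2, hsmul _ _⟩
  intro g hg
  rw [Subgroup.mem_normalizer_iff]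
  intro h
  constructor
  · exact key g hg h
  · intro hh
    have := key g⁻¹ (inv_mem hg) _ hh
    simpa [mul_assoc] using this

end Cfsg.Agent.Lib.Helper48.Iso
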