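import Cfsg.Agent.Lib.Helper48.Iso.Base
import Cfsg.Agent.Lib.Helper97.Kazarin

set_option autoImplicit false

namespace Cfsg.Agent.Lib.Helper48.Iso

open Subgroup
open scoped commutatorElement

variable {G : Type*} [Group G]

namespace D4e

/-- `|Y Z : C ∩ Y Z| = |Y : Y ∩ C|` for `Y` normal and `Z ≤ C`. -/
theorem relIndex_sup_eq [Finite G] {Y C Z : Subgroup G} (hY : Y.Normal) (hZC : Z ≤ C) :
    C.relIndex (Y ⊔ Z) = (Y ⊓ C).relIndex Y := by
  set H := Y ⊔ Z with hH
  set D := C ⊓ H with hD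
  have hYH : Y ≤ H := le_sup_left
  have hDH : D ≤ H := inf_le_right
  have hsup : D ⊔ Y = H :=
    le_antisymm (sup_le hDH hYH) (sup_le le_sup_right ((le_inf hZC le_sup_right).trans le_sup_left))
  have h1 : Y.relIndex H = Y.relIndex D := by rw [← hsup, relIndex_sup_right]
  have h2 : (Y ⊓ D).relIndex D * D.relIndex H = (Y ⊓ D).relIndex H :=
    relIndex_mul_relIndex _ _ _ inf_le_right hDH
  have h3 : (Y ⊓ D).relIndex Y * Y.relIndex H = (Y ⊓ D).relIndex H :=
    relIndex_mul_relIndex _ _ _ inf_le_left hYH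
  rw [inf_relIndex_right, ← h1] at h2
  have h4 : Y ⊓ D = Y ⊓ C :=
    le_antisymm (inf_le_inf_left _ inf_le_left) (le_inf inf_le_left (le_inf inf_le_right
      (inf_le_left.trans hYH)))
  have h5 : D.relIndex H = C.relIndex H := inf_relIndex_right _ _
  have h0 : Y.relIndex H ≠ 0 := by
    have : (Y.subgroupOf H).FiniteIndex := inferInstance
    exact this.index_ne_zero
  rw [h5] at h2
  rw [h4] at h3
  have h6 : Y.relIndex H * C.relIndex H = Y.relIndex H * (Y ⊓ C).relIndex Y := by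
    rw [h2, mul_comm, h3, h4]
  exact Nat.eq_of_mul_eq_mul_left (Nat.pos_of_ne_zero h0) h6

end D4e

/-- [D4e] Kazarin: if `|Y : C_Y(r)|` is a prime power then `[Y, r]` is solvable. -/
theorem commutator_solvable [Finite G] {Y : Subgroup G} (hY : Y.Normal) (r : G) {t k : ℕ}
    (ht : t.Prime) (hn : (Y ⊓ Subgroup.centralizer {r}).relIndex Y = t ^ k) :
    Group.IsSolvable ↥⁅Y, Subgroup.zpowers r⁆ := by
  set H := Y ⊔ zpowers r with hH
  have hrH : r ∈ H := (le_sup_right : zpowers r ≤ H) (mem_zpowers r)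
  have hZC : zpowers r ≤ centralizer {r} := by
    rw [zpowers_le, mem_centralizer_singleton_iff]
  have hidx : (centralizer ({(⟨r, hrH⟩ : H)} : Set H)).index = t ^ k := by
    have h1 : centralizer ({(⟨r, hrH⟩ : H)} : Set H) = (centralizer ({r} : Set G)).subgroupOf H := by
      ext g
      rw [mem_centralizer_singleton_iff, mem_subgroupOf, mem_centralizer_singleton_iff,
        Subtype.ext_iff]
      rfl
    rw [h1, ← hn, ← D4e.relIndex_sup_eq hY hZC]
    rfl
  have hsol := Cfsg.Agent.Lib.Helper97.kazarin (⟨r, hrH⟩ : H) ht hidx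
  set N0 := normalClosure ({(⟨r, hrH⟩ : H)} : Set H) with hN0
  have hle : ⁅Y, zpowers r⁆ ≤ N0.map H.subtype := by
    rw [commutator_le]
    intro y hy z hz
    have hyH : y ∈ H := (le_sup_left : Y ≤ H) hy
    have hzH : z ∈ H := (le_sup_right : zpowers r ≤ H) hz
    have hzN : (⟨z, hzH⟩ : H) ∈ N0 := by
      obtain ⟨j, rfl⟩ := mem_zpowers_iff.1 hz
      have h1 : (⟨r, hrH⟩ : H) ∈ N0 := subset_normalClosure (Set.mem_singleton _)
      have h2 := zpow_mem h1 j
      have h3 : (⟨r, hrH⟩ : H) ^ j = ⟨r ^ j, hzH⟩ := Subtype.ext (by simp)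
      rwa [h3] at h2
    have hN0n : N0.Normal := normalClosure_normal
    refine ⟨⁅(⟨y, hyH⟩ : H), ⟨z, hzH⟩⁆, ?_, rfl⟩
    rw [SetLike.mem_coe, commutatorElement_def]
    exact mul_mem (hN0n.conj_mem _ hzN _) (inv_mem hzN)
  have hsol2 : Group.IsSolvable ↥(N0.map H.subtype) :=
    Group.isSolvable_of_surjective (f := (H.subtype.subgroupMap N0))
      (MonoidHom.subgroupMap_surjective _ _)
  exact Group.isSolvable_of_isSolvable_injective (inclusion_injective hle)

end Cfsg.Agent.Lib.Helper48.Iso
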