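import Cfsg.Agent.Lib.Helper48.Iso.Base
import Cfsg.Agent.Lib.Helper31.GenFitting
import Cfsg.Agent.Lib.Helper21.Layer

set_option autoImplicit false

namespace Cfsg.Agent.Lib.Helper48.Iso

open Subgroup
open scoped commutatorElement

variable {G : Type*} [Group G]

/-- [F1] -/
theorem eq_iSup_components [Finite G] (Y : Subgroup G) (hY : Y.Normal) (hl : Cfsg.layer ↥Y = ⊤) :
    Y = ⨆ K ∈ {K : Subgroup G | Cfsg.IsComponent K ∧ K ≤ Y}, K := by
  apply le_antisymm
  · have h1 : Y = (Cfsg.layer ↥Y).map Y.subtype := by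
      rw [hl, ← MonoidHom.range_eq_map, Subgroup.range_subtype]
    conv_lhs => rw [h1]
    rw [map_le_iff_le_comap]
    apply sSup_le
    intro K0 hK0
    rw [← map_le_iff_le_comap]
    exact le_iSup₂ (f := fun (K : Subgroup G)
      (_ : K ∈ {K : Subgroup G | Cfsg.IsComponent K ∧ K ≤ Y}) => K) (K0.map Y.subtype)
      ⟨(Cfsg.Agent.Lib.Helper31.isComponent_map_subtype_iff hY.isSubnormal K0).1 hK0,
        map_subtype_le K0⟩
  · exact iSup₂_le fun K hK => hK.2

/-- [F2] -/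
theorem le_normalizer_component [Finite G] (Y : Subgroup G) (hY : Y.Normal) (hl : Cfsg.layer ↥Y = ⊤)
    (K : Subgroup G) (hK : Cfsg.IsComponent K) (hKY : K ≤ Y) : Y ≤ Subgroup.normalizer (K : Set G) := by
  have hmap : (K.subgroupOf Y).map Y.subtype = K := map_subgroupOf_eq_of_le hKY
  have hK0 : Cfsg.IsComponent (K.subgroupOf Y) :=
    (Cfsg.Agent.Lib.Helper31.isComponent_map_subtype_iff hY.isSubnormal _).2 (by rw [hmap]; exact hK)
  have hn := Cfsg.Agent.Lib.Helper21.IsComponent.layer_le_normalizer hK0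
  rw [hl] at hn
  have key : ∀ y ∈ Y, ∀ g ∈ K, y * g * y⁻¹ ∈ K := by
    intro y hy g hg
    have h1 : (⟨y, hy⟩ : Y) ∈ normalizer ((K.subgroupOf Y : Subgroup Y) : Set Y) := hn (mem_top _)
    have h2 := (mem_normalizer_iff.1 h1 ⟨g, hKY hg⟩).1 (mem_subgroupOf.2 hg)
    exact mem_subgroupOf.1 h2
  intro y hy
  rw [mem_normalizer_iff]
  intro g
  refine ⟨key y hy g, fun hg => ?_⟩
  have := key y⁻¹ (inv_mem hy) _ hg
  simpa [mul_assoc] using this

/-- [F3] -/
theorem perfect_of_layer [Finite G] (Y : Subgroup G) (hY : Y.Normal) (hl : Cfsg.layer ↥Y = ⊤) :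
    ⁅Y, Y⁆ = Y := by
  apply le_antisymm (commutator_le_left Y Y)
  conv_lhs => rw [eq_iSup_components Y hY hl]
  refine iSup₂_le fun K hK => ?_
  rw [← Cfsg.Agent.Lib.Helper31.IsComponent.perfect hK.1]
  exact commutator_mono hK.2 hK.2

/-- [F4] -/
theorem commutator_eq_bot_of_solvable [Finite G] (Y : Subgroup G) (hY : Y.Normal)
    (hl : Cfsg.layer ↥Y = ⊤) (A : Subgroup G) (hAY : A ≤ Y) (hA : Y ≤ Subgroup.normalizer (A : Set G))
    (hs : Group.IsSolvable ↥A) : ⁅A, Y⁆ = ⊥ := by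
  rw [commutator_comm, commutator_eq_bot_iff_le_centralizer]
  conv_lhs => rw [eq_iSup_components Y hY hl]
  refine iSup₂_le fun K hK => ?_
  rw [← commutator_eq_bot_iff_le_centralizer]
  exact Cfsg.Agent.Lib.Helper31.IsComponent.commutator_eq_bot_of_isSolvable hK.1 hs (hK.2.trans hA)

end Cfsg.Agent.Lib.Helper48.Iso
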