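import Cfsg.Agent.Lib.Helper48.Iso.D1
import Cfsg.Agent.Lib.Helper48.Iso.F
import Cfsg.Agent.Lib.Helper48.Iso.D4a
import Cfsg.Agent.Lib.Helper48.Iso.D4e

set_option autoImplicit false

namespace Cfsg.Agent.Lib.Helper48.Iso

open scoped commutatorElement

variable {G : Type*} [Group G] {p : ℕ} {Y S R T0 : Subgroup G}

namespace D4

theorem conj_mem_of_mem_normalizer {A : Subgroup G} {g a : G}
    (hg : g ∈ Subgroup.normalizer (A : Set G)) (ha : a ∈ A) : g * a * g⁻¹ ∈ A :=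
  (Subgroup.mem_normalizer_iff.mp hg a).mp ha

theorem le_normalizer_of_forall {A : Subgroup G} {K : Subgroup G}
    (h : ∀ g ∈ K, ∀ a ∈ A, g * a * g⁻¹ ∈ A) : K ≤ Subgroup.normalizer (A : Set G) := by
  intro g hg
  rw [Subgroup.mem_normalizer_iff]
  intro a
  refine ⟨h g hg a, fun ha => ?_⟩
  have := h g⁻¹ (K.inv_mem hg) _ ha
  simpa [mul_assoc] using this

theorem inf_eq_bot_of_not_dvd [Finite G] [Fact p.Prime] {A B : Subgroup G} (hB : IsPGroup p B)
    (hc : ¬ p ∣ Nat.card A) : A ⊓ B = ⊥ := by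
  have hc' : (Nat.card A).Coprime p :=
    ((Nat.Prime.coprime_iff_not_dvd (Fact.out : p.Prime)).mpr hc).symm
  have h1 : IsPGroup p ↥(A ⊓ B) := hB.to_le inf_le_right
  obtain ⟨n, hn⟩ := IsPGroup.iff_card.mp h1
  have h2 : Nat.card ↥(A ⊓ B) ∣ Nat.card A := Subgroup.card_dvd_of_le inf_le_left
  have h3 : (Nat.card ↥(A ⊓ B)).Coprime (Nat.card A) := by
    rw [hn]
    exact (Nat.Coprime.pow_left n hc'.symm)
  have h4 : Nat.card ↥(A ⊓ B) = 1 := Nat.Coprime.eq_one_of_dvd h3 h2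
  exact (Subgroup.card_eq_one).mp h4

theorem inf_normalizer_le {Y R : Subgroup G} (hnY : Y.Normal) (hYR : Y ⊓ R = ⊥) :
    Y ⊓ Subgroup.normalizer (R : Set G) ≤ Y ⊓ Subgroup.centralizer (R : Set G) := by
  intro x hx
  refine Subgroup.mem_inf.mpr ⟨hx.1, ?_⟩
  rw [Subgroup.mem_centralizer_iff]
  intro r hr
  have h2 : x * r * x⁻¹ * r⁻¹ ∈ Y ⊓ R := by
    refine Subgroup.mem_inf.mpr ⟨?_, ?_⟩
    · have : r * x⁻¹ * r⁻¹ ∈ Y := hnY.conj_mem _ (Y.inv_mem hx.1) r
      have h3 := Y.mul_mem hx.1 this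
      simpa [mul_assoc] using h3
    · exact R.mul_mem (conj_mem_of_mem_normalizer hx.2 hr) (R.inv_mem hr)
  rw [hYR, Subgroup.mem_bot] at h2
  have h3 : x * r = r * x := by
    have := congrArg (fun z => z * r * x) h2
    simpa [mul_assoc] using this
  exact h3.symm

/-- `[Y, H]` is normalized by `Y`. -/
theorem le_normalizer_commutator_left (Y H : Subgroup G) :
    Y ≤ Subgroup.normalizer ((⁅Y, H⁆ : Subgroup G) : Set G) := by
  apply le_normalizer_of_forall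
  intro y hy x hx
  have h1 : ⁅Y, H⁆ ≤ (⁅Y, H⁆ : Subgroup G).comap (MulAut.conj y).toMonoidHom := by
    rw [Subgroup.commutator_le]
    intro a ha b hb
    rw [Subgroup.mem_comap]
    have h2 : (MulAut.conj y).toMonoidHom ⁅a, b⁆ = ⁅y * a, b⁆ * ⁅y, b⁆⁻¹ := by
      simp only [commutatorElement_def, MulEquiv.toMonoidHom_eq_coe, MonoidHom.coe_coe,
        MulAut.conj_apply]
      group
    rw [h2]
    exact Subgroup.mul_mem _ (Subgroup.commutator_mem_commutator (Y.mul_mem hy ha) hb)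
      (Subgroup.inv_mem _ (Subgroup.commutator_mem_commutator hy hb))
  exact h1 hx

end D4

open D4 Cfsg.Agent.Lib.Helper31 in
/-- [D4] -/
theorem dvd_card [Finite G] [Fact p.Prime] (h : Hyp p Y S R T0) (hl : Cfsg.layer ↥Y = ⊤) :
    p ∣ Nat.card Y := by
  by_contra hp
  have hnY := h.nY
  have hperf := perfect_of_layer Y hnY hl
  have hYne : Y ≠ ⊥ := fun h0 => h.T0ne (le_bot_iff.mp (h0 ▸ h.T0Y))
  have hYR : Y ⊓ R = ⊥ := inf_eq_bot_of_not_dvd (h.pS.to_le h.RS) hp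
  have hNC := inf_normalizer_le hnY hYR
  -- (a), (b)
  have key : ∀ s : ℕ, s.Prime → ∃ Q : Sylow s ↥Y,
      T0 ≤ (Q : Subgroup ↥Y).map Y.subtype ∨
        (Q : Subgroup ↥Y).map Y.subtype ≤ Y ⊓ Subgroup.centralizer (R : Set G) := by
    intro s hs
    have : Fact s.Prime := ⟨hs⟩
    obtain ⟨Q, hQ⟩ := exists_invariant_sylow (s := s) hnY h.pS hp
    refine ⟨Q, ?_⟩
    rcases h.h4 _ (Subgroup.map_subtype_le _) hQ with h1 | h1
    · exact Or.inl h1
    · exact Or.inr ((le_inf (Subgroup.map_subtype_le _) h1).trans hNC)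
  -- (c)
  have hc : ∃ t : ℕ, t.Prime ∧ ∀ s : ℕ, s.Prime → s ≠ t → ∃ Q : Sylow s ↥Y,
      (Q : Subgroup ↥Y).map Y.subtype ≤ Y ⊓ Subgroup.centralizer (R : Set G) := by
    by_cases hex : ∃ t : ℕ, t.Prime ∧ ∃ Q : Sylow t ↥Y, T0 ≤ (Q : Subgroup ↥Y).map Y.subtype
    · obtain ⟨t, ht, Qt, hQt⟩ := hex
      refine ⟨t, ht, fun s hs hst => ?_⟩
      have : Fact s.Prime := ⟨hs⟩
      have : Fact t.Prime := ⟨ht⟩
      obtain ⟨Q, hQ⟩ := key s hs
      refine ⟨Q, hQ.resolve_left fun hQ' => ?_⟩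
      have hd : Disjoint ((Q : Subgroup ↥Y).map Y.subtype) ((Qt : Subgroup ↥Y).map Y.subtype) :=
        IsPGroup.disjoint_of_ne s t hst _ _ (Q.2.map _) (Qt.2.map _)
      exact h.T0ne (le_bot_iff.mp (hd hQ' hQt))
    · push Not at hex
      refine ⟨2, Nat.prime_two, fun s hs _ => ?_⟩
      obtain ⟨Q, hQ⟩ := key s hs
      exact ⟨Q, hQ.resolve_left (hex s hs Q)⟩
  obtain ⟨t, ht, hQ⟩ := hc
  -- (d)-(f)
  have hr : ∀ r ∈ R, ⁅Subgroup.zpowers r, Y⁆ = ⊥ := by
    intro r hr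
    have hCle : Y ⊓ Subgroup.centralizer (R : Set G) ≤ Y ⊓ Subgroup.centralizer {r} :=
      inf_le_inf le_rfl (Subgroup.centralizer_le (by simpa using hr))
    have hn0 : (Y ⊓ Subgroup.centralizer {r}).relIndex Y ≠ 0 := Subgroup.index_ne_zero_of_finite
    have hn := Nat.eq_prime_pow_of_unique_prime_dvd (p := t) hn0 (by
      intro s hs hsn
      by_contra hst
      have : Fact s.Prime := ⟨hs⟩
      obtain ⟨Q, hQC⟩ := hQ s hs hst
      have h1 : (Q : Subgroup ↥Y) ≤ (Y ⊓ Subgroup.centralizer {r}).subgroupOf Y := by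
        intro x hx
        rw [Subgroup.mem_subgroupOf]
        exact hCle (hQC ⟨x, hx, rfl⟩)
      have h2 : (Y ⊓ Subgroup.centralizer {r}).relIndex Y ∣ (Q : Subgroup ↥Y).index :=
        Subgroup.index_dvd_of_le h1
      exact Q.not_dvd_index (hsn.trans h2))
    have hsolv := commutator_solvable hnY r ht hn
    have h3 : ⁅⁅Y, Subgroup.zpowers r⁆, Y⁆ = ⊥ :=
      commutator_eq_bot_of_solvable Y hnY hl _ (Subgroup.commutator_le_left _ _)
        (le_normalizer_commutator_left Y _) hsolv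
    apply commutator_eq_bot_of_perfect hperf
    rw [Subgroup.commutator_comm (Subgroup.zpowers r) Y]
    exact h3
  -- (g)
  apply hYne
  rw [← h.h3, Subgroup.commutator_comm, Subgroup.commutator_eq_bot_iff_le_centralizer]
  intro r hr'
  have := hr r hr'
  rw [Subgroup.commutator_eq_bot_iff_le_centralizer] at this
  exact this (Subgroup.mem_zpowers r)

end Cfsg.Agent.Lib.Helper48.Iso
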