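import Cfsg.Agent.Lib.Helper48.Iso.D1
import Cfsg.Agent.Lib.Helper48.Iso.F

set_option autoImplicit false

namespace Cfsg.Agent.Lib.Helper48.Iso

open scoped commutatorElement

variable {G : Type*} [Group G] {p : ℕ} {Y S R T0 : Subgroup G}

namespace D5

open Cfsg.Agent.Lib.Helper31

/-- conjugate subgroup -/
abbrev cj (g : G) (K : Subgroup G) : Subgroup G := K.map (MulAut.conj g).toMonoidHom

theorem cj_cj (a b : G) (K : Subgroup G) : cj b (cj a K) = cj (b * a) K := by
  unfold cj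
  rw [Subgroup.map_map]
  congr 1
  ext x
  simp [mul_assoc]

theorem cj_one (K : Subgroup G) : cj 1 K = K := by
  ext x
  simp [cj]

theorem conj_mem_of_mem_normalizer {A : Subgroup G} {g a : G}
    (hg : g ∈ Subgroup.normalizer (A : Set G)) (ha : a ∈ A) : g * a * g⁻¹ ∈ A :=
  (Subgroup.mem_normalizer_iff.mp hg a).mp ha

theorem le_normalizer_of_forall {A : Subgroup G} {K : Subgroup G}
    (h : ∀ g ∈ K, cj g A ≤ A) : K ≤ Subgroup.normalizer (A : Set G) := by
  intro g hg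
  rw [Subgroup.mem_normalizer_iff]
  intro a
  refine ⟨fun ha => h g hg ⟨a, ha, rfl⟩, fun ha => ?_⟩
  have := h g⁻¹ (K.inv_mem hg) ⟨_, ha, rfl⟩
  simpa [mul_assoc] using this

theorem cj_le_of_mem_normalizer {A : Subgroup G} {g : G}
    (hg : g ∈ Subgroup.normalizer (A : Set G)) : cj g A ≤ A := by
  rintro _ ⟨a, ha, rfl⟩
  exact conj_mem_of_mem_normalizer hg ha

/-- the join of the `S`-conjugates of `K` -/
def X (S K : Subgroup G) : Subgroup G := ⨆ s : S, cj (s : G) K

theorem cj_le_X {S : Subgroup G} (K : Subgroup G) {s : G} (hs : s ∈ S) : cj s K ≤ X S K :=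
  le_iSup (fun s : S => cj (s : G) K) ⟨s, hs⟩

theorem le_X (S K : Subgroup G) : K ≤ X S K := by
  have := cj_le_X (S := S) K S.one_mem
  rwa [cj_one] at this

theorem S_le_normalizer_X (S K : Subgroup G) : S ≤ Subgroup.normalizer (X S K : Set G) := by
  apply le_normalizer_of_forall
  intro g hg
  unfold X
  unfold cj
  rw [Subgroup.map_iSup]
  apply iSup_le
  intro s
  have := cj_cj (s : G) g K
  unfold cj at this
  rw [this]
  exact cj_le_X K (S.mul_mem hg s.2)

theorem le_normalizer_X {S K A : Subgroup G}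
    (h : ∀ s ∈ S, A ≤ Subgroup.normalizer (cj s K : Set G)) :
    A ≤ Subgroup.normalizer (X S K : Set G) := by
  apply le_normalizer_of_forall
  intro g hg
  unfold X
  show Subgroup.map _ _ ≤ _
  rw [Subgroup.map_iSup]
  apply iSup_le
  intro s
  exact (cj_le_of_mem_normalizer (h s s.2 hg)).trans (cj_le_X K s.2)

theorem cj_le_normal {Y : Subgroup G} (hY : Y.Normal) {K : Subgroup G} (hK : K ≤ Y) (g : G) :
    cj g K ≤ Y := by
  rintro _ ⟨a, ha, rfl⟩
  exact hY.conj_mem _ (hK ha) g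

theorem X_le {Y : Subgroup G} (hY : Y.Normal) (S : Subgroup G) {K : Subgroup G} (hK : K ≤ Y) :
    X S K ≤ Y :=
  iSup_le fun s => cj_le_normal hY hK s

theorem isComponent_cj {K : Subgroup G} (hK : Cfsg.IsComponent K) (g : G) :
    Cfsg.IsComponent (cj g K) :=
  IsComponent.map_equiv hK (MulAut.conj g)

/-- (4a) non-conjugate components have commuting orbits -/
theorem X_le_centralizer_X {S K K0 : Subgroup G} (hK : Cfsg.IsComponent K)
    (hK0 : Cfsg.IsComponent K0) (hne : ∀ s ∈ S, K ≠ cj s K0) :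
    X S K ≤ Subgroup.centralizer (X S K0 : Set G) := by
  apply iSup_le
  intro s'
  rw [Subgroup.le_centralizer_iff]
  apply iSup_le
  intro s
  rw [← Subgroup.commutator_eq_bot_iff_le_centralizer]
  apply IsComponent.commutator_eq_bot_of_ne (isComponent_cj hK0 _) (isComponent_cj hK _)
  intro heq
  apply hne ((s' : G)⁻¹ * s) (S.mul_mem (S.inv_mem s'.2) s.2)
  rw [← cj_cj, heq, cj_cj, inv_mul_cancel, cj_one]

end D5

open D5 Cfsg.Agent.Lib.Helper31 in
/-- [D5] -/
theorem trans_components [Finite G] [Fact p.Prime] (h : Hyp p Y S R T0) (hl : Cfsg.layer ↥Y = ⊤)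
    (K₁ K₂ : Subgroup G) (h₁ : Cfsg.IsComponent K₁) (h₂ : Cfsg.IsComponent K₂) (h₁Y : K₁ ≤ Y)
    (h₂Y : K₂ ≤ Y) : ∃ s ∈ S, K₂ = K₁.map (MulAut.conj s).toMonoidHom := by
  have hnY := h.nY
  have hF1 := eq_iSup_components Y hnY hl
  have hperf := perfect_of_layer Y hnY hl
  have hYne : Y ≠ ⊥ := fun h0 => h.T0ne (le_bot_iff.mp (h0 ▸ h.T0Y))
  -- (1)
  have s1 : ∀ K : Subgroup G, Cfsg.IsComponent K → K ≤ Y →
      X S K ≤ Subgroup.normalizer (R : Set G) → ⁅R, K⁆ = ⊥ := by
    intro K hK hKY hXN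
    have hB : ⁅R, K⁆ ≤ X S K ⊓ R := by
      rw [Subgroup.commutator_le]
      intro r hr k hk
      rw [commutatorElement_def]
      refine Subgroup.mem_inf.mpr ⟨?_, ?_⟩
      · exact (X S K).mul_mem
          (conj_mem_of_mem_normalizer (S_le_normalizer_X S K (h.RS hr)) (le_X S K hk))
          ((X S K).inv_mem (le_X S K hk))
      · have h3 : k * r⁻¹ * k⁻¹ ∈ R :=
          conj_mem_of_mem_normalizer (hXN (le_X S K hk)) (R.inv_mem hr)
        have h4 := R.mul_mem hr h3
        simpa [mul_assoc] using h4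
    have hBp : IsPGroup p ↥(X S K ⊓ R) := (h.pS.to_le h.RS).to_le inf_le_right
    have hBn : Group.IsNilpotent ↥(X S K ⊓ R) := hBp.isNilpotent
    have hBs : Group.IsSolvable ↥(X S K ⊓ R) := inferInstance
    have hKB : K ≤ Subgroup.normalizer ((X S K ⊓ R : Subgroup G) : Set G) := by
      apply le_normalizer_of_forall
      intro g hg
      rintro _ ⟨a, ha, rfl⟩
      refine Subgroup.mem_inf.mpr ⟨?_, ?_⟩
      · exact (X S K).mul_mem ((X S K).mul_mem (le_X S K hg) ha.1) ((X S K).inv_mem (le_X S K hg))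
      · exact conj_mem_of_mem_normalizer (hXN (le_X S K hg)) ha.2
    have h5 : ⁅K, X S K ⊓ R⁆ = ⊥ := IsComponent.commutator_eq_bot_of_isSolvable hK hBs hKB
    apply commutator_eq_bot_of_perfect (IsComponent.perfect hK)
    rw [eq_bot_iff, ← h5, Subgroup.commutator_comm K]
    exact Subgroup.commutator_mono hB le_rfl
  -- (2)
  have s2 : ∀ K : Subgroup G, Cfsg.IsComponent K → K ≤ Y → T0 ≤ X S K ∨ ⁅R, K⁆ = ⊥ := by
    intro K hK hKY
    rcases h.h4 (X S K) (X_le hnY S hKY) (S_le_normalizer_X S K) with h3 | h3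
    · exact Or.inl h3
    · exact Or.inr (s1 K hK hKY h3)
  -- (3)
  have s3 : ∃ K0 : Subgroup G, Cfsg.IsComponent K0 ∧ K0 ≤ Y ∧ ⁅R, K0⁆ ≠ ⊥ := by
    by_contra hcon
    push Not at hcon
    apply hYne
    rw [← h.h3, Subgroup.commutator_eq_bot_iff_le_centralizer, hF1]
    apply iSup₂_le
    intro K hK
    have := hcon K hK.1 hK.2
    rw [Subgroup.commutator_comm, Subgroup.commutator_eq_bot_iff_le_centralizer] at this
    exact this
  obtain ⟨K0, hK0, hK0Y, hK0R⟩ := s3
  have hT0 : T0 ≤ X S K0 := (s2 K0 hK0 hK0Y).resolve_right hK0R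
  -- (4)
  have s4 : ∀ K : Subgroup G, Cfsg.IsComponent K → K ≤ Y → (∀ s ∈ S, K ≠ cj s K0) →
      ⁅R, K⁆ = ⊥ := by
    intro K hK hKY hne
    by_contra hKR
    have hT1 : T0 ≤ X S K := (s2 K hK hKY).resolve_right hKR
    have hXX := X_le_centralizer_X hK hK0 hne
    have hT2 : Y ≤ Subgroup.centralizer (T0 : Set G) := by
      rw [hF1]
      apply iSup₂_le
      intro K' hK'
      by_cases hc : ∃ s ∈ S, K' = cj s K0
      · obtain ⟨s, hs, rfl⟩ := hc
        refine (cj_le_X K0 hs).trans ?_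
        rw [Subgroup.le_centralizer_iff]
        exact hT1.trans hXX
      · push Not at hc
        refine (le_X S K').trans ((X_le_centralizer_X hK'.1 hK0 hc).trans ?_)
        exact Subgroup.centralizer_le hT0
    have hZn : (Y ⊓ Subgroup.centralizer (Y : Set G)).Normal := by
      have : (Subgroup.centralizer (Y : Set G)).Normal := inferInstance
      exact Subgroup.normal_inf_normal _ _
    have h6 : Y ≤ Y ⊓ Subgroup.centralizer (Y : Set G) :=
      h.h6 _ hZn (le_inf h.T0Y (Subgroup.le_centralizer_iff.mp hT2))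
    apply hYne
    rw [← hperf, Subgroup.commutator_eq_bot_iff_le_centralizer]
    exact h6.trans inf_le_right
  -- (5)
  set Y2 : Subgroup G :=
    ⨆ K ∈ {K : Subgroup G | (Cfsg.IsComponent K ∧ K ≤ Y) ∧ ∀ s ∈ S, K ≠ cj s K0}, K with hY2
  have hY2R : Y2 ≤ Subgroup.centralizer (R : Set G) := by
    apply iSup₂_le
    intro K hK
    have := s4 K hK.1.1 hK.1.2 hK.2
    rw [Subgroup.commutator_comm, Subgroup.commutator_eq_bot_iff_le_centralizer] at this
    exact this
  have hY2W : Y2 ≤ Subgroup.centralizer (X S K0 : Set G) := by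
    apply iSup₂_le
    intro K hK
    exact (le_X S K).trans (X_le_centralizer_X hK.1.1 hK0 hK.2)
  have hYsup : Y ≤ X S K0 ⊔ Y2 := by
    conv_lhs => rw [hF1]
    apply iSup₂_le
    intro K' hK'
    by_cases hc : ∃ s ∈ S, K' = cj s K0
    · obtain ⟨s, hs, rfl⟩ := hc
      exact (cj_le_X K0 hs).trans le_sup_left
    · push Not at hc
      refine le_trans ?_ le_sup_right
      exact le_iSup₂ (f := fun (K : Subgroup G)
        (_ : K ∈ {K : Subgroup G | (Cfsg.IsComponent K ∧ K ≤ Y) ∧ ∀ s ∈ S, K ≠ cj s K0}) => K)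
        K' ⟨hK', hc⟩
  have s5 : Y ≤ X S K0 := by
    conv_lhs => rw [← h.h3]
    rw [Subgroup.commutator_le]
    intro y hy r hr
    obtain ⟨w, hw, c, hc, rfl⟩ := Cfsg.Agent.Lib.Helper21.mem_sup_of_commute
      (A := X S K0) (T := Y2)
      (fun a ha t ht => (Subgroup.mem_centralizer_iff.mp (hY2W ht)) a ha) (hYsup hy)
    have h6 : r * c = c * r := (Subgroup.mem_centralizer_iff.mp (hY2R hc)) r hr
    have h7 : r * w⁻¹ * r⁻¹ ∈ X S K0 :=
      conj_mem_of_mem_normalizer (S_le_normalizer_X S K0 (h.RS hr)) ((X S K0).inv_mem hw)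
    have h8 : ⁅w * c, r⁆ = w * (r * w⁻¹ * r⁻¹) := by
      rw [commutatorElement_def]
      have : c * r * c⁻¹ = r := by rw [← h6]; group
      calc w * c * r * (w * c)⁻¹ * r⁻¹ = w * (c * r * c⁻¹) * w⁻¹ * r⁻¹ := by group
        _ = w * (r * w⁻¹ * r⁻¹) := by rw [this]; group
    rw [h8]
    exact (X S K0).mul_mem hw h7
  -- (6)
  have s6 : ∀ K : Subgroup G, Cfsg.IsComponent K → K ≤ Y → ∃ s ∈ S, K = cj s K0 := by
    intro K hK hKY
    by_contra hc
    push Not at hc
    apply IsComponent.ne_bot hK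
    rw [← IsComponent.perfect hK, Subgroup.commutator_eq_bot_iff_le_centralizer]
    refine (le_X S K).trans ((X_le_centralizer_X hK hK0 hc).trans ?_)
    exact Subgroup.centralizer_le (hKY.trans s5)
  obtain ⟨s₁, hs₁, rfl⟩ := s6 K₁ h₁ h₁Y
  obtain ⟨s₂, hs₂, rfl⟩ := s6 K₂ h₂ h₂Y
  refine ⟨s₂ * s₁⁻¹, S.mul_mem hs₂ (S.inv_mem hs₁), ?_⟩
  have := cj_cj s₁ (s₂ * s₁⁻¹) K0
  rw [inv_mul_cancel_right] at this
  exact this.symm

end Cfsg.Agent.Lib.Helper48.Iso
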