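import Cfsg.Agent.Lib.Helper48.Iso.Base
import Cfsg.Agent.Lib.Helper47.PCore

set_option autoImplicit false

namespace Cfsg.Agent.Lib.Helper48.Iso

variable {G : Type*} [Group G] {p : ℕ}

namespace E1

theorem subgroupOf_pCore (Y : Subgroup G) (hY : Y.Normal) :
    (Cfsg.pCore p G).subgroupOf Y = Cfsg.pCore p ↥Y := by
  apply le_antisymm
  · apply Cfsg.Agent.Lib.Helper47.le_pCore
    · have := Cfsg.Agent.Lib.Helper47.pCore_normal (p := p) (G := G)
      infer_instance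
    · exact (Cfsg.Agent.Lib.Helper47.pCore_isPGroup (p := p) (G := G)).comap_subtype
  · have hc := Cfsg.Agent.Lib.Helper47.pCore_characteristic (p := p) (G := ↥Y)
    have hn : ((Cfsg.pCore p ↥Y).map Y.subtype).Normal :=
      ConjAct.normal_of_characteristic_of_normal
    have hle : (Cfsg.pCore p ↥Y).map Y.subtype ≤ Cfsg.pCore p G :=
      Cfsg.Agent.Lib.Helper47.le_pCore hn
        ((Cfsg.Agent.Lib.Helper47.pCore_isPGroup (p := p) (G := ↥Y)).map _)
    intro y hy
    rw [Subgroup.mem_subgroupOf]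
    exact hle (Subgroup.mem_map_of_mem _ hy)

end E1

/-- [E1] `Y / O_p(Y) ≃ Y O_p(G) / O_p(G)` for `Y` normal in `G`. -/
theorem exists_equiv [Finite G] [Fact p.Prime] (Y : Subgroup G) (hY : Y.Normal)
    [hn : (Cfsg.pCore p G).Normal] [hm : (Cfsg.pCore p ↥Y).Normal] :
    ∃ e : (↥Y ⧸ Cfsg.pCore p ↥Y) ≃* ↥(Y.map (QuotientGroup.mk' (Cfsg.pCore p G))),
      ∀ y : ↥Y, ((e (QuotientGroup.mk y) : ↥(Y.map (QuotientGroup.mk' (Cfsg.pCore p G)))) :
        G ⧸ Cfsg.pCore p G) = QuotientGroup.mk (y : G) := by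
  let f : ↥Y →* ↥(Y.map (QuotientGroup.mk' (Cfsg.pCore p G))) :=
    (QuotientGroup.mk' (Cfsg.pCore p G)).subgroupMap Y
  have hsurj : Function.Surjective f := MonoidHom.subgroupMap_surjective _ _
  have hker : Cfsg.pCore p ↥Y = f.ker := by
    rw [← E1.subgroupOf_pCore Y hY]
    ext y
    rw [Subgroup.mem_subgroupOf, MonoidHom.mem_ker, Subtype.ext_iff]
    show _ ↔ (QuotientGroup.mk' (Cfsg.pCore p G)) (y : G) = 1
    rw [QuotientGroup.mk'_apply, QuotientGroup.eq_one_iff]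
  refine ⟨(QuotientGroup.quotientMulEquivOfEq hker).trans
    (QuotientGroup.quotientKerEquivOfSurjective f hsurj), fun y => rfl⟩

end Cfsg.Agent.Lib.Helper48.Iso
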