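import Cfsg.Agent.Lib.Helper48.Iso.Base
import Cfsg.Agent.Lib.Helper31.GenFitting

set_option autoImplicit false

namespace Cfsg.Agent.Lib.Helper48.Iso

variable {G : Type*} [Group G] {p : ℕ}

/-- [E2a] -/
theorem transport_layer {X X' : Type*} [Group X] [Group X'] (e : X ≃* X') (hl : Cfsg.layer X' = ⊤) :
    Cfsg.layer X = ⊤ := by
  have h1 := Cfsg.Agent.Lib.Helper31.layer_map_equiv e
  rw [hl] at h1
  rw [eq_top_iff]
  intro x _
  have h2 : e x ∈ (Cfsg.layer X).map e.toMonoidHom := by rw [h1]; exact Subgroup.mem_top _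
  obtain ⟨y, hy, hyx⟩ := h2
  have : y = x := e.injective hyx
  rwa [← this]

/-- [E2b] a component `K` of `Y / O_p(Y)` gives the component `Kt` of `G / O_p(G)`. -/
theorem transport_comp (Y : Subgroup G) (hY : Y.Normal)
    [hn : (Cfsg.pCore p G).Normal] [hm : (Cfsg.pCore p ↥Y).Normal]
    (e : (↥Y ⧸ Cfsg.pCore p ↥Y) ≃* ↥(Y.map (QuotientGroup.mk' (Cfsg.pCore p G))))
    (he : ∀ y : ↥Y, ((e (QuotientGroup.mk y) : ↥(Y.map (QuotientGroup.mk' (Cfsg.pCore p G)))) :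
        G ⧸ Cfsg.pCore p G) = QuotientGroup.mk (y : G))
    (K : Subgroup (↥Y ⧸ Cfsg.pCore p ↥Y)) (hK : Cfsg.IsComponent K) :
    Cfsg.IsComponent ((K.map e.toMonoidHom).map (Subgroup.subtype _)) ∧
      (K.map e.toMonoidHom).map (Subgroup.subtype _) ≤ Y.map (QuotientGroup.mk' (Cfsg.pCore p G)) ∧
      (K.comap (QuotientGroup.mk' (Cfsg.pCore p ↥Y))).map Y.subtype =
        (((K.map e.toMonoidHom).map (Subgroup.subtype _)).comap (QuotientGroup.mk' (Cfsg.pCore p G))) ⊓ Y := by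
  have hYn : (Y.map (QuotientGroup.mk' (Cfsg.pCore p G))).Normal :=
    hY.map _ (QuotientGroup.mk'_surjective _)
  refine ⟨?_, Subgroup.map_subtype_le _, ?_⟩
  · exact (Cfsg.Agent.Lib.Helper31.isComponent_map_subtype_iff hYn.isSubnormal _).1
      (Cfsg.Agent.Lib.Helper31.IsComponent.map_equiv hK e)
  · ext x
    constructor
    · rintro ⟨y, hy, rfl⟩
      refine ⟨?_, y.2⟩
      exact ⟨e (QuotientGroup.mk y), ⟨QuotientGroup.mk y, hy, rfl⟩, he y⟩
    · rintro ⟨⟨k', ⟨k, hk, rfl⟩, hk'⟩, hx⟩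
      refine ⟨⟨x, hx⟩, ?_, rfl⟩
      have h1 : e k = e (QuotientGroup.mk (⟨x, hx⟩ : ↥Y)) := by
        apply Subtype.ext
        rw [he]
        exact hk'
      have h2 : k = QuotientGroup.mk (⟨x, hx⟩ : ↥Y) := e.injective h1
      show QuotientGroup.mk' (Cfsg.pCore p ↥Y) (⟨x, hx⟩ : ↥Y) ∈ K
      rw [QuotientGroup.mk'_apply, ← h2]
      exact hk

/-- [E2c] -/
theorem transport_conj (Y D : Subgroup G) (hY : Y.Normal) [hn : D.Normal]
    (K₁ K₂ : Subgroup (G ⧸ D)) (s : G)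
    (h : K₂ = K₁.map (MulAut.conj (QuotientGroup.mk' D s)).toMonoidHom) :
    K₂.comap (QuotientGroup.mk' D) ⊓ Y =
      (K₁.comap (QuotientGroup.mk' D) ⊓ Y).map (MulAut.conj s).toMonoidHom := by
  subst h
  ext x
  constructor
  · rintro ⟨⟨k, hk, hkx⟩, hx⟩
    refine ⟨s⁻¹ * x * s, ⟨?_, ?_⟩, ?_⟩
    · show QuotientGroup.mk' D (s⁻¹ * x * s) ∈ K₁
      have h1 : QuotientGroup.mk' D (s⁻¹ * x * s) = k := by
        rw [map_mul, map_mul, ← hkx, map_inv]
        simp [MulAut.conj_apply, mul_assoc]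
      rw [h1]; exact hk
    · have := hY.conj_mem x hx s⁻¹
      simpa using this
    · simp [MulAut.conj_apply, mul_assoc]
  · rintro ⟨z, ⟨hz, hzY⟩, rfl⟩
    refine ⟨⟨QuotientGroup.mk' D z, hz, ?_⟩, ?_⟩
    · simp [MulAut.conj_apply]
    · simpa [MulAut.conj_apply] using hY.conj_mem z hzY s

end Cfsg.Agent.Lib.Helper48.Iso
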