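import Cfsg.Agent.Lib.Helper48.Iso.Base
import Cfsg.Agent.Lib.Helper31.GenFitting

set_option autoImplicit false

namespace Cfsg.Agent.Lib.Helper48.Iso

variable {G : Type*} [Group G]

/-- [E3] -/
theorem transport_nilp {X : Type*} [Group X] (Y : Subgroup G) (e : X ≃* ↥Y) (t : ℕ)
    (ht : IsPGroup t Y) (hc : ⁅⁅Y, Y⁆, Y⁆ = ⊥) :
    IsPGroup t X ∧ ∃ _ : Group.IsNilpotent X, Group.nilpotencyClass X ≤ 2 := by
  refine ⟨ht.of_equiv e.symm, ?_⟩
  let f : X →* G := Y.subtype.comp e.toMonoidHom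
  have hf : Function.Injective f := Y.subtype_injective.comp e.injective
  have htop : (⊤ : Subgroup X).map f = Y := by
    rw [← MonoidHom.range_eq_map]
    ext x
    constructor
    · rintro ⟨a, rfl⟩
      exact (e a).2
    · intro hx
      exact ⟨e.symm ⟨x, hx⟩, by simp [f]⟩
  have h2 : (⊤ : Subgroup X).lowerCentralSeries 2 = ⊥ := by
    rw [← Subgroup.map_eq_bot_iff_of_injective _ hf]
    simp only [Subgroup.lowerCentralSeries_succ, Subgroup.lowerCentralSeries_zero,
      Subgroup.map_commutator, htop, hc]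
  have hn : Group.IsNilpotent X := Subgroup.nilpotent_iff_lowerCentralSeries.2 ⟨2, h2⟩
  exact ⟨hn, Subgroup.lowerCentralSeries_eq_bot_iff_nilpotencyClass_le.1 h2⟩

/-- [E4a] -/
theorem le_genFitting_of_nilp [Finite G] (Y : Subgroup G) (hY : Y.Normal) (hn : Group.IsNilpotent ↥Y) :
    Y ≤ Cfsg.generalizedFittingSubgroup G :=
  (le_sSup (show Y ∈ {N : Subgroup G | N.Normal ∧ Group.IsNilpotent N} from ⟨hY, hn⟩)).trans
    le_sup_right

/-- [E4b] -/
theorem le_genFitting_of_layer [Finite G] (Y : Subgroup G) (hY : Y.Normal) (hl : Cfsg.layer ↥Y = ⊤) :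
    Y ≤ Cfsg.generalizedFittingSubgroup G := by
  have h1 : (Cfsg.layer ↥Y).map Y.subtype ≤ Cfsg.layer G := by
    rw [Subgroup.map_le_iff_le_comap]
    apply sSup_le
    intro K hK
    rw [← Subgroup.map_le_iff_le_comap]
    exact Cfsg.Agent.Lib.Helper31.IsComponent.le_layer
      ((Cfsg.Agent.Lib.Helper31.isComponent_map_subtype_iff hY.isSubnormal K).1 hK)
  rw [hl, ← MonoidHom.range_eq_map, Subgroup.range_subtype] at h1
  exact h1.trans le_sup_left

end Cfsg.Agent.Lib.Helper48.Iso
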